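import Cfsg.Agent.H6.ON.Tab0

set_option autoImplicit false
set_option maxRecDepth 100000
set_option Elab.async false

namespace Cfsg.H6.ON

theorem p0 : allR (ptU img) 0 2560 = true := by decide +kernel

theorem p1 : allR (ptU img) 2560 2560 = true := by decide +kernel

theorem p2 : allR (ptU img) 5120 2560 = true := by decide +kernel

theorem p3 : allR (ptU img) 7680 2560 = true := by decide +kernel

theorem p4 : allR (ptU img) 10240 2560 = true := by decide +kernel

theorem p5 : allR (ptU img) 12800 2560 = true := by decide +kernel

theorem p6 : allR (ptU img) 15360 2560 = true := by decide +kernel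

theorem p7 : allR (ptU img) 17920 2560 = true := by decide +kernel

end Cfsg.H6.ON
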