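import Cfsg.Agent.H6.ON.Tab0

set_option autoImplicit false
set_option maxRecDepth 100000
set_option Elab.async false

namespace Cfsg.H6.ON

theorem p16 : allR (ptU img) 40960 2560 = true := by decide +kernel

theorem p17 : allR (ptU img) 43520 2560 = true := by decide +kernel

theorem p18 : allR (ptU img) 46080 2560 = true := by decide +kernel

theorem p19 : allR (ptU img) 48640 2560 = true := by decide +kernel

theorem p20 : allR (ptU img) 51200 2560 = true := by decide +kernel

theorem p21 : allR (ptU img) 53760 2560 = true := by decide +kernel

theorem p22 : allR (ptU img) 56320 2560 = true := by decide +kernel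

theorem p23 : allR (ptU img) 58880 2560 = true := by decide +kernel

end Cfsg.H6.ON
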