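import Cfsg.Agent.H6.ON.Tab0

set_option autoImplicit false
set_option maxRecDepth 100000
set_option Elab.async false

namespace Cfsg.H6.ON

theorem p24 : allR (ptU img) 61440 2560 = true := by decide +kernel

theorem p25 : allR (ptU img) 64000 2560 = true := by decide +kernel

theorem p26 : allR (ptU img) 66560 2560 = true := by decide +kernel

theorem p27 : allR (ptU img) 69120 2560 = true := by decide +kernel

theorem p28 : allR (ptU img) 71680 2560 = true := by decide +kernel

theorem p29 : allR (ptU img) 74240 2560 = true := by decide +kernel

theorem p30 : allR (ptU img) 76800 2560 = true := by decide +kernel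

theorem p31 : allR (ptU img) 79360 2560 = true := by decide +kernel

end Cfsg.H6.ON
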