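import Cfsg.Agent.H6.ON.Tab0

set_option autoImplicit false
set_option maxRecDepth 100000
set_option Elab.async false

namespace Cfsg.H6.ON

theorem p32 : allR (ptU img) 81920 2560 = true := by decide +kernel

theorem p33 : allR (ptU img) 84480 2560 = true := by decide +kernel

theorem p34 : allR (ptU img) 87040 2560 = true := by decide +kernel

theorem p35 : allR (ptU img) 89600 2560 = true := by decide +kernel

theorem p36 : allR (ptU img) 92160 2560 = true := by decide +kernel

theorem p37 : allR (ptU img) 94720 2560 = true := by decide +kernel

theorem p38 : allR (ptU img) 97280 2560 = true := by decide +kernel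

theorem p39 : allR (ptU img) 99840 2560 = true := by decide +kernel

end Cfsg.H6.ON
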