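import Cfsg.Agent.H6.ON.Tab0

set_option autoImplicit false
set_option maxRecDepth 100000
set_option Elab.async false

namespace Cfsg.H6.ON

theorem p40 : allR (ptU img) 102400 2560 = true := by decide +kernel

theorem p41 : allR (ptU img) 104960 2560 = true := by decide +kernel

theorem p42 : allR (ptU img) 107520 2560 = true := by decide +kernel

theorem p43 : allR (ptU img) 110080 2560 = true := by decide +kernel

theorem p44 : allR (ptU img) 112640 2560 = true := by decide +kernel

theorem p45 : allR (ptU img) 115200 2560 = true := by decide +kernel

theorem p46 : allR (ptU img) 117760 2560 = true := by decide +kernel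

theorem p47 : allR (ptU img) 120320 2440 = true := by decide +kernel

end Cfsg.H6.ON
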