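import Cfsg.Agent.H6.ON.Tab0

set_option autoImplicit false
set_option maxRecDepth 100000
set_option Elab.async false

namespace Cfsg.H6.ON

theorem q0_0 : allR (ivl img Ws 1 5587) 1 5586 = true := by decide +kernel

theorem q1_0 : allR (ivl img Ws 5587 11971) 5587 6384 = true := by decide +kernel

theorem q2_0 : allR (ivl img Ws 11971 64107) 11971 33333 = true := by decide +kernel

theorem q2_1 : allR (ivl img Ws 11971 64107) 45304 18803 = true := by decide +kernel

theorem q3_0 : allR (ivl img Ws 64107 122760) 64107 33333 = true := by decide +kernel

theorem q3_1 : allR (ivl img Ws 64107 122760) 97440 25320 = true := by decide +kernel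

end Cfsg.H6.ON
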