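import Cfsg.Agent.H6.Ab
import Cfsg.Agent.H6.ON.Rep
import Cfsg.Agent.H6.ON.C1.Main
import Cfsg.Agent.H6.ON.C2.Main
import Cfsg.Agent.H6.ON.C3.Main

set_option autoImplicit false
set_option maxRecDepth 100000
set_option Elab.async false

namespace Cfsg.H6.ON

theorem cover : Cover (gen ev Ws) ⊤ 122760 := hX ▸ C1.cover hev hR

theorem ubH : UB (gen ev Ws) 3753792 := (UB.bot.cover (C3.cover hev hR)).cover (C2.cover hev hR)

theorem ub : UB (⊤ : Subgroup Spor.ON) 460815505920 := ubH.cover cover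

def I : List Ivl := [(1, 5587, [7,4,7]), (5587, 11971, [7,2,4,7]), (11971, 64107, [7,2,7]), (64107, 122760, [7])]

theorem act : ∃ φ : Spor.ON →* Equiv.Perm ℕ, IsAct φ ev img 122760 9 := by
  obtain ⟨ψ, hψ⟩ := lift rep.1 rep.2.1
  exact ⟨_, rep.2.2.comp ψ hψ⟩

/-- The permutation representation. -/
noncomputable def φ : Spor.ON →* Equiv.Perm ℕ := act.choose

theorem hφ : IsAct φ ev img 122760 9 := act.choose_spec

theorem prim : Prim φ ev (gen ev Ws) 122760 I :=
  prim_sound hφ cover (List.forall_mem_cons.mpr ⟨iv0 hφ, (List.forall_mem_cons.mpr ⟨iv1 hφ, (List.forall_mem_cons.mpr ⟨iv2 hφ, (List.forall_mem_cons.mpr ⟨iv3 hφ, (by simp)⟩)⟩)⟩)⟩) (by decide +kernel)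

theorem coatom : IsCoatom (gen ev Ws) :=
  prim.isCoatom hφ hX (C := [[], [0,5,0,3,0,3,5,0,3,5,0,5], [0,0,3,0,2,3,0,1,3,2], [0,3,0,4,3,0,3,2,4,3,2], [0]]) (by decide +kernel)

def lW0 : List (List ℕ) := [[nat_lit 1], [nat_lit 2], [nat_lit 3]]

theorem l0 : lvlChk img 122760 9 [1,0] (5636, lW0, unp 7 (nat_lit 0x169c000016740000164c0100163001001614020016040200160400)) = true := by
  decide +kernel

def lW1 : List (List ℕ) := [[nat_lit 4], [nat_lit 2, nat_lit 1]]

theorem l1 : lvlChk img 122760 9 [5636,1,0] (4442, lW1, unp 5 (nat_lit 0x116700001439010014390000115a0100115a00)) = true := by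
  decide +kernel

def lW2 : List (List ℕ) := [[nat_lit 6, nat_lit 4]]

theorem l2 : lvlChk img 122760 9 [4442,5636,1,0] (5959, lW2, unp 1 (nat_lit 0x174700)) = true := by
  decide +kernel

def lW3 : List (List ℕ) := [[nat_lit 4, nat_lit 3, nat_lit 2, nat_lit 6, nat_lit 4, nat_lit 3]]

theorem l3 : lvlChk img 122760 9 [5959,4442,5636,1,0] (2, lW3, unp 6 (nat_lit 0x150000001a0000001c0000003a0000001e0000000200)) = true := by
  decide +kernel

theorem finite : Finite Spor.ON := ub.top.1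

def bs : List ℕ := [2,5959,4442,5636,1,0]

theorem lb : LBn φ ⊤ 122760 bs 460815505920 := by
  have := finite
  exact LBn.cast (((((prim.lb2 (e := I.head (by decide)) (List.head_mem _)).stepT hφ l0).stepT hφ l1).stepT hφ l2).stepT hφ l3) (by decide +kernel)

theorem main : Nat.card Spor.ON = 460815505920 ∧ fixS φ bs = ⊥ ∧ Oracle ev img 9 bs := by
  have := finite
  exact lb.oracle hφ ub.top.2

theorem normal (N : Subgroup Spor.ON) [N.Normal] (hN : N ≠ ⊥) :
    ∀ t ∈ ([[1], [2], [3], [4], [5], [6], [7]] : List (List ℕ)), evL ev t ∈ N := by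
  have := finite
  exact prim.normal_contains hev coatom lb.2 main.2.1 main.2.2 (p := 31) (k := 1) (j := 1) (by norm_num)
    main.1 (x := [4,5,3,2,8]) (St := [([4,5,3,2,8], [], [3], 19, 2), ([3], [], [2], 3, 2), ([2], [], [1], 3, 2), ([4,5,3,2,8], [], [5], 19, 2), ([5], [], [4], 3, 2), ([5], [], [6], 3, 2), ([4,5,3,2,8], [2], [7], 15, 4)]) (by decide +kernel) N hN

theorem simple : IsSimpleGroup Spor.ON := by
  have := prim.nontrivial
  exact isSimple_of_contains hX normal

end Cfsg.H6.ON
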